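import Cfsg.Agent.H6.PG

set_option autoImplicit false
set_option maxRecDepth 100000
set_option Elab.async false

namespace Cfsg.H4.J1

open Cfsg.H6

/-- The relators of the amalgam. -/
def R0 : List (List ℕ) := [[1,1,1], [1,3,1,3,1,3], [3,4,3,4,3,4], [1,4,1,4], [5,1,5,2], [5,3,5,3], [5,4,5,4], [6,6,6,6,6,6,6], [2,6,1,7,7], [7,5,6,3], [7,3,6,2,3,1], [7,2,3,1,6,5,3]]

end Cfsg.H4.J1
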